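import Cfsg.Agent.H124.DM.Uniq
import Cfsg.Agent.H451.EqD.IsClSix
import Cfsg.Agent.H700.DM.Defs
import Cfsg.Agent.S0254
import Cfsg.Agent.S2086
import Cfsg.Agent.S2088
import Cfsg.Agent.S2089
import Cfsg.Agent.S2090
import Cfsg.Agent.S2091
import Cfsg.Agent.S2092
import Cfsg.Agent.S2094
import Cfsg.Agent.S2095
import Cfsg.Agent.S2096
import Cfsg.Agent.S2097
import Cfsg.Agent.S2099
import Cfsg.Agent.S2116

/-!
# Covers of classical groups with centres of the same order (helper124, S4907, DM18)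
-/

set_option autoImplicit false

namespace Cfsg.Agent.H124.DM

open Cfsg Function Cfsg.Agent.H487 Cfsg.Agent.H700.DM

universe u₁ u₂

theorem iso_of_good {g : OrdDiv.Grp} {X : H902.Art.Sh} {p f : ℕ} {G : Type u₁} {H : Type u₂} [Group G] [Finite G]
    [Group H] [Finite H] (hG : Good g X p f G) (hH : Good g X p f H)
    (e : G ⧸ Subgroup.center G ≃* H ⧸ Subgroup.center H)
    (hc : Nat.card (Subgroup.center G) = Nat.card (Subgroup.center H))
    (hD : ∀ m, X = .D m → Even m → Odd p → Nat.card (Subgroup.center H) ≠ 2) : Nonempty (G ≃* H) := by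
  have one : ∀ n, H902.Art.dd X (p ^ f) = n → n = 1 → Nonempty (G ≃* H) := by
    intro n h1 h2
    have h3 := hG.dvd
    rw [h1, h2, Nat.dvd_one] at h3
    exact iso_of_center_one e h3 (by rw [← hc]; exact h3)
  have hqG := hG.quasi
  have hqH := hH.quasi
  have hdvd := hG.dvd
  have hreal := hG.real
  have hname := hG.name
  have hcl := hG.cl
  have hlie := hG.isLie
  clear hG hH
  have hp : p.Prime := hreal.hp
  have hf : 1 ≤ f := hreal.hf
  have hok := hreal.ok
  have hq2 : 2 ≤ p ^ f := hp.two_le.trans (Nat.le_self_pow (by omega) p)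
  cases hlie with
  | psl n =>
    obtain ⟨F, _, _, hF, ⟨eG⟩⟩ := hname
    obtain ⟨hn, hn2⟩ : 2 ≤ n ∧ (n = 2 → 4 ≤ p ^ f) := hok
    have hdv : Nat.card (Subgroup.center G) ∣ Nat.gcd n (p ^ f - 1) := hdvd
    have : Finite (Matrix.ProjectiveSpecialLinearGroup (Fin n) F) := Finite.of_equiv _ eG.toEquiv
    by_cases hexc : (n, p ^ f) ∈ ({(2, 4), (2, 9), (3, 2), (3, 4), (4, 2)} : Set (ℕ × ℕ))
    · simp only [Set.mem_insert_iff, Set.mem_singleton_iff, Prod.mk.injEq] at hexc
      rcases hexc with ⟨rfl, h⟩ | ⟨rfl, h⟩ | ⟨rfl, h⟩ | ⟨rfl, h⟩ | ⟨rfl, h⟩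
      · exact one (Nat.gcd 2 (p ^ f - 1)) rfl (by rw [h]; decide)
      · obtain ⟨e9⟩ := S0254.result (F := F) (by rw [hF]; exact h)
        exact iso_of_cyc (S2116.result 6 (Or.inl rfl)) hqG hqH (eG.trans e9) e hc
      · exact one (Nat.gcd 3 (p ^ f - 1)) rfl (by rw [h]; decide)
      · have h1 := S2088.result (F := F) (by rw [hF]; exact h)
        refine iso_of_proj h1 hqG hqH eG e hc ?_
        rw [h] at hdv
        exact Nat.Coprime.coprime_dvd_right hdv (by rw [Nat.card_prod, Nat.card_zmod]; decide)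
      · exact one (Nat.gcd 4 (p ^ f - 1)) rfl (by rw [h]; decide)
    · have h1 := S2086.result (F := F) hF n hn hn2 hexc
      have : NeZero (Nat.gcd n (p ^ f - 1)) := ⟨(Nat.gcd_pos_of_pos_left _ (by omega)).ne'⟩
      exact iso_of_cyc h1 hqG hqH eG e hc
  | psp n =>
    obtain ⟨F, _, _, hF, ⟨eG⟩⟩ := hname
    obtain ⟨hn, hn2⟩ : 2 ≤ n ∧ (n = 2 → 3 ≤ p ^ f) := hok
    have : Finite (PSp n F) := Finite.of_equiv _ eG.toEquiv
    by_cases hexc : n = 3 ∧ p ^ f = 2
    · exact one (Nat.gcd 2 (p ^ f - 1)) rfl (by rw [hexc.2]; decide)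
    · have h1 := S2092.result (F := F) hF n hn hn2 hexc
      have : NeZero (Nat.gcd 2 (p ^ f - 1)) := ⟨(Nat.gcd_pos_of_pos_left _ (by omega)).ne'⟩
      exact iso_of_cyc h1 hqG hqH eG e hc
  | oodd n _ _ hn ho =>
    obtain ⟨F, _, _, hF, ⟨eG⟩⟩ := hname
    have : Finite (POmega F (quadFormOdd n F)) := Finite.of_equiv _ eG.toEquiv
    by_cases hexc : n = 3 ∧ p ^ f = 3
    · obtain ⟨rfl, h⟩ := hexc
      exact iso_of_cyc (S2095.result (F := F) (by rw [hF]; exact h)) hqG hqH eG e hc
    · exact iso_of_cyc (S2094.result (F := F) hF ho n hn hexc) hqG hqH eG e hc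
  | psu n =>
    obtain ⟨F, _, _, hF, ⟨eG⟩⟩ := hname
    obtain ⟨hn, hn2⟩ : 3 ≤ n ∧ (n = 3 → 3 ≤ p ^ f) := hok
    have hdv : Nat.card (Subgroup.center G) ∣ Nat.gcd n (p ^ f + 1) := hdvd
    have : Finite (PSU n F (p ^ f)) := Finite.of_equiv _ eG.toEquiv
    by_cases hexc : (n, p ^ f) ∈ ({(4, 2), (4, 3), (6, 2)} : Set (ℕ × ℕ))
    · simp only [Set.mem_insert_iff, Set.mem_singleton_iff, Prod.mk.injEq] at hexc
      rcases hexc with ⟨rfl, h⟩ | ⟨rfl, h⟩ | ⟨rfl, h⟩
      · exact one (Nat.gcd 4 (p ^ f + 1)) rfl (by rw [h]; decide)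
      · rw [h] at hdv eG hF
        have h1 := S2090.result (F := F) hF
        refine iso_of_proj h1 hqG hqH eG e hc ?_
        exact Nat.Coprime.coprime_dvd_right hdv (by rw [Nat.card_prod, Nat.card_zmod]; decide)
      · rw [h] at hdv eG hF
        have h1 := S2091.result (F := F) hF
        refine iso_of_proj h1 hqG hqH eG e hc ?_
        exact Nat.Coprime.coprime_dvd_right hdv (by rw [Nat.card_prod, Nat.card_zmod]; decide)
    · have h1 := S2089.result (F := F) n (p ^ f) hF hn (fun h => by have := hn2 h.1; omega) hexc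
      have : NeZero (Nat.gcd n (p ^ f + 1)) := ⟨(Nat.gcd_pos_of_pos_left _ (by omega)).ne'⟩
      exact iso_of_cyc h1 hqG hqH eG e hc
  | oplus n =>
    obtain ⟨F, _, _, hF, ⟨eG⟩⟩ := hname
    have hn : 4 ≤ n := hok
    have hdv : Nat.card (Subgroup.center G) ∣ Nat.gcd 4 ((p ^ f) ^ n - 1) := hdvd
    have : Finite (POmega F (quadFormPlus n F)) := Finite.of_equiv _ eG.toEquiv
    rcases Nat.even_or_odd n with hev | hodd
    · rcases hp.eq_two_or_odd' with hp2 | hpo
      · -- even characteristic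
        refine one (Nat.gcd 4 ((p ^ f) ^ n - 1)) rfl ?_
        have h1 : Odd ((p ^ f) ^ n - 1) := by
          have h2 : Even ((p ^ f) ^ n) := by
            rw [hp2]
            exact (Nat.even_pow.2 ⟨Nat.even_pow.2 ⟨even_two, by omega⟩, by omega⟩)
          exact Nat.Even.sub_odd (Nat.one_le_pow _ _ (by omega)) h2 odd_one
        have h2 : Nat.Coprime 4 ((p ^ f) ^ n - 1) := by
          have : Nat.Coprime (2 ^ 2) ((p ^ f) ^ n - 1) := Nat.Coprime.pow_left 2 (Nat.coprime_two_left.2 h1)
          exact this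
        exact h2
      · have hq : Odd (p ^ f) := hpo.pow
        have h1 := S2097.result (F := F) hF n hn hev (fun h => by
          have := h.2
          rw [this] at hq
          exact absurd hq (by decide))
        have hg : Nat.gcd 2 ((p ^ f) ^ n - 1) = 2 := by
          apply Nat.gcd_eq_left
          have h2 : Odd ((p ^ f) ^ n) := hq.pow
          exact (Nat.Odd.sub_odd h2 odd_one).two_dvd
        rw [hg] at h1
        have hz4 : Nat.card (Subgroup.center G) ∣ 4 := hdv.trans (Nat.gcd_dvd_left _ _)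
        have hne := hD n rfl hev hpo
        rw [← hc] at hne
        have hle := Nat.le_of_dvd (by norm_num) hz4
        have hcases : Nat.card (Subgroup.center G) = 1 ∨ Nat.card (Subgroup.center G) = 4 := by
          have h3 := Nat.card_pos (α := Subgroup.center G)
          interval_cases h : Nat.card (Subgroup.center G)
          · left; rfl
          · exact absurd rfl hne
          · exact absurd hz4 (by decide)
          · right; rfl
        rcases hcases with h4 | h4
        · exact iso_of_center_one e h4 (by rw [← hc]; exact h4)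
        · refine iso_of_mult h1 hqG hqH eG (e.symm.trans eG) hc ?_
          have hbot : ∀ X : Subgroup (Multiplicative (ZMod 2 × ZMod 2)),
              X.index = Nat.card (Subgroup.center G) → X = ⊥ := by
            intro X hX
            rw [h4] at hX
            have h5 := X.card_mul_index
            rw [hX] at h5
            have h6 : Nat.card (Multiplicative (ZMod 2 × ZMod 2)) = 4 := by
              rw [Nat.card_congr (Multiplicative.toAdd (α := ZMod 2 × ZMod 2)), Nat.card_prod, Nat.card_zmod]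
            rw [h6] at h5
            exact Subgroup.eq_bot_of_card_eq _ (by omega)
          intro X Y hX hY
          rw [hbot X hX, hbot Y hY]
    · have h1 := S2096.result (F := F) hF n (by rcases hodd with ⟨k, rfl⟩; omega) hodd
      have : NeZero (Nat.gcd 4 ((p ^ f) ^ n - 1)) := ⟨(Nat.gcd_pos_of_pos_left _ (by omega)).ne'⟩
      exact iso_of_cyc h1 hqG hqH eG e hc
  | ominus n =>
    obtain ⟨F, _, _, a, b, hF, hab, ⟨eG⟩⟩ := hname
    have hn : 4 ≤ n := hok
    have : Finite (POmega F (quadFormMinus (n - 1) F a b)) := Finite.of_equiv _ eG.toEquiv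
    have h1 := S2099.result (F := F) hF n hn a b hab
    have : NeZero (Nat.gcd 4 ((p ^ f) ^ n + 1)) := ⟨(Nat.gcd_pos_of_pos_left _ (by omega)).ne'⟩
    exact iso_of_cyc h1 hqG hqH eG e hc
  | _ => exact absurd hcl (by simp [IsCl])

end Cfsg.Agent.H124.DM
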