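import Cfsg.Agent.H124.DM.TwoAbs
import Cfsg.Agent.H713.DM.Refl
import Cfsg.Agent.H887.DM.Tri

/-!
# Covers with centre of order two of `D_m(q)`, `m` even, `q` odd (helper124, S4907, DM28)

`two_covers`, from `H713.DM.refl` (reflections) and `H887.DM.tri` (triality).
-/

set_option autoImplicit false

namespace Cfsg.Agent.H124.DM

open Cfsg Function Cfsg.Agent.H487

universe u v

theorem two_covers {F : Type} [Field F] [Fintype F] (ho : Odd (Fintype.card F)) {m : ℕ} (hm : 4 ≤ m) (hev : Even m)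
    {G : Type u} {H : Type v} [Group G] [Finite G] [Group H] [Finite H] (hG : Cfsg.IsQuasisimple G)
    (hH : Cfsg.IsQuasisimple H) (eG : G ⧸ Subgroup.center G ≃* POmega F (quadFormPlus m F))
    (eH : H ⧸ Subgroup.center H ≃* POmega F (quadFormPlus m F)) (cG : Nat.card (Subgroup.center G) = 2)
    (cH : Nat.card (Subgroup.center H) = 2)
    (hne : m = 4 ∨ (¬ Nonempty (G ≃* Omega F (quadFormPlus m F)) ∧ ¬ Nonempty (H ≃* Omega F (quadFormPlus m F)))) :
    Nonempty (G ≃* H) := by
  have h4 := card_prU_ker ho hm hev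
  rcases hne with rfl | ⟨nG, nH⟩
  · exact iso_of_trans h4 (H887.DM.tri ho) hG.1.commutator_eq_top hH.1.commutator_eq_top eG eH cG cH
  · obtain ⟨A₀, hA, -, -, e, h⟩ := H713.DM.refl ho hm hev
    exact iso_of_not h4 A₀ h hG.1.commutator_eq_top hH.1.commutator_eq_top eG eH cG cH e nG nH

end Cfsg.Agent.H124.DM
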